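import Groth.Agent.Sga2lef.H92.LocU

/-!
# Affine opens of geometric depth `≥ n` as closed subschemes of affine space
-/

set_option autoImplicit false
universe u
open CategoryTheory CategoryTheory.Limits AlgebraicGeometry Opposite TopologicalSpace

namespace Groth.Agent.Sga2lef.H92.ClosedImm

open Groth.Agent.Sga2lef.H92.LocU Groth.Agent.Sga2lef.H92.GeomEq

theorem krullDim_closure_singleton {X : Type*} [TopologicalSpace X] (u : X) (hu : IsClosed ({u} : Set X)) :
    topologicalKrullDim ↥(closure ({u} : Set X)) = ((0 : ℕ) : WithBot ℕ∞) := by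
  have : Unique ↥(closure ({u} : Set X)) := by
    rw [hu.closure_eq]
    infer_instance
  refine le_antisymm (topologicalKrullDim_zero_of_discreteTopology ↥(closure ({u} : Set X))) ?_
  have : Nonempty (IrreducibleCloseds ↥(closure ({u} : Set X))) :=
    ⟨⟨closure {default}, isIrreducible_singleton.closure, isClosed_closure⟩⟩
  exact Order.krullDim_nonneg

/-- The data of a presentation of `A` as a quotient of a regular local ring of dimension `e` by `q`
equations with `e - q ≥ n`. -/
def Pres (n : ℕ) (A : Type u) [CommRing A] : Prop :=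
  ∃ (B : Type u) (_ : CommRing B) (_ : IsRegularLocalRing B) (φ : B →+* A) (s : Finset B) (e : ℕ),
    Function.Surjective φ ∧ Ideal.span (s : Set B) = RingHom.ker φ ∧
      ringKrullDim B = (e : WithBot ℕ∞) ∧ n + s.card ≤ e

theorem exists_closedImmersion (k : Type u) [Field k] (X : Scheme.{u})
    (f : X ⟶ Spec (CommRingCat.of k)) [LocallyOfFiniteType f] (V : X.Opens) (hV : IsAffineOpen V)
    (n : ℕ) (hdepth : ∀ u : X, u ∈ V → IsClosed ({u} : Set X) → Pres n (X.presheaf.stalk u)) :
    ∃ (N : ℕ) (_ : n + 1 ≤ N) (i : (V : Scheme.{u}) ⟶ Spec (CommRingCat.of (MvPolynomial (Fin N) k)))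
      (_ : IsClosedImmersion i), i ≫ Spec.map (CommRingCat.ofHom MvPolynomial.C) = V.ι ≫ f ∧
        LocUnion (N - n) (compl i) := by
  -- the `k`-algebra `Γ(X, V)`
  let g : k →+* Γ(X, V) := (Spec.preimage (hV.isoSpec.inv ≫ V.ι ≫ f)).hom
  have hg : Spec.map (CommRingCat.ofHom g) = hV.isoSpec.inv ≫ V.ι ≫ f := by
    rw [CommRingCat.ofHom_hom, Spec.map_preimage]
  have hgft : g.FiniteType := by
    have h1 : LocallyOfFiniteType (Spec.map (CommRingCat.ofHom g)) := by
      rw [hg]; infer_instance
    exact (HasRingHomProperty.Spec_iff (P := @LocallyOfFiniteType)).1 h1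
  obtain ⟨N, hN, π, hπ, hπg⟩ := exists_presentation g hgft (n + 1)
  have hci : IsClosedImmersion (Spec.map (CommRingCat.ofHom π)) :=
    IsClosedImmersion.spec_of_surjective _ hπ
  refine ⟨N, hN, hV.isoSpec.hom ≫ Spec.map (CommRingCat.ofHom π), inferInstance, ?_, ?_⟩
  · rw [Category.assoc, ← Spec.map_comp, ← CommRingCat.ofHom_comp, hπg, hg, Iso.hom_inv_id_assoc]
  · refine locUnion_spec π hπ (N - n) (by omega) ?_ _ ?_
    · intro m hm
      -- the closed point of `X` defined by `m`
      let z : Spec Γ(X, V) := ⟨m, hm.isPrime⟩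
      let v : (V : Scheme.{u}) := hV.isoSpec.inv z
      have hzc : IsClosed ({z} : Set (Spec Γ(X, V))) :=
        (PrimeSpectrum.isClosed_singleton_iff_isMaximal z).2 hm
      have hvc : IsClosed ({v} : Set (V : Scheme.{u})) := by
        have h1 := hV.isoSpec.inv.homeomorph.isClosedMap _ hzc
        rw [Set.image_singleton] at h1
        exact h1
      have hJ : JacobsonSpace X := LocallyOfFiniteType.jacobsonSpace f
      have huc : IsClosed ({V.ι v} : Set X) := by
        have h1 : v ∈ closedPoints (V : Scheme.{u}) := hvc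
        rw [← V.ι.isOpenEmbedding.preimage_closedPoints] at h1
        exact h1
      have huV : V.ι v ∈ V := v.2
      obtain ⟨B, _, _, φ, s, e, hφ, hs, he, hn⟩ := hdepth _ huV huc
      let _ := X.presheaf.algebra_section_stalk (⟨V.ι v, huV⟩ : V)
      have hloc := hV.isLocalization_stalk ⟨V.ι v, huV⟩
      have hpm : (hV.primeIdealOf ⟨V.ι v, huV⟩).asIdeal = m := by
        have h1 : hV.primeIdealOf ⟨V.ι v, huV⟩ = z := by
          apply hV.fromSpec.isOpenEmbedding.injective
          rw [hV.fromSpec_primeIdealOf]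
          rfl
        rw [h1]
      have hpc : (hV.primeIdealOf ⟨V.ι v, huV⟩).asIdeal.primeCompl = m.primeCompl := by
        ext a
        change a ∉ (hV.primeIdealOf ⟨V.ι v, huV⟩).asIdeal ↔ a ∉ m
        rw [hpm]
      have hloc' : IsLocalization.AtPrime (X.presheaf.stalk (V.ι v)) m := by
        unfold IsLocalization.AtPrime at hloc ⊢
        rw [hpc] at hloc
        exact hloc
      exact exists_local_eqs_of_presentation π hπ m (X.presheaf.stalk (V.ι v)) B φ hφ s hs e he n
        (N - n) hn (by omega)
    · intro y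
      rw [mem_compl]
      have h1 : Set.range (hV.isoSpec.hom ≫ Spec.map (CommRingCat.ofHom π)) =
          Set.range (Spec.map (CommRingCat.ofHom π)) := by
        rw [Scheme.Hom.comp_base, TopCat.coe_comp]
        exact hV.isoSpec.hom.surjective.range_comp _
      rw [h1]

end Groth.Agent.Sga2lef.H92.ClosedImm
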