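import Groth.Agent.EtpbcA.ArtinPK
import Groth.Agent.EtpbcA.CdEtLeray

/-!
# Vanishing of cohomology in low degrees may be checked over algebraically closed extensions
-/

set_option autoImplicit false
universe u
open CategoryTheory CategoryTheory.Limits AlgebraicGeometry Opposite

namespace Groth.Agent.Sga2lef.H92.Descend

open Groth.Agent.EtpbcA Groth.Agent.EtpbcA.Artin

variable {k : Type u} [Field k] {X : Scheme.{u}} (f : X ⟶ Spec (CommRingCat.of k)) [QuasiCompact f]
  [QuasiSeparated f] (F : EtCoh.Ab X)

theorem isZero_Rpush_of_algClosed (q : ℕ)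
    (H : ∀ (L : Type u) [Field L] [IsAlgClosed L] (t : Spec (CommRingCat.of L) ⟶ Spec (CommRingCat.of k))
      (W : Scheme.{u}) (w : W ⟶ X) (g : W ⟶ Spec (CommRingCat.of L)), IsPullback w g f t →
      Subsingleton (EtCoh.H W ((EtCoh.pull w).obj F) q)) :
    IsZero ((EtCoh.Rpush f q).obj F) := by
  refine Groth.Agent.Etcore.Stalks.isZero_of_stalks _ fun s => ?_
  obtain ⟨R, _, _, _, _, hR⟩ := Groth.Agent.S0537.result
    ((Spec (CommRingCat.of k)).presheaf.stalk s)
  have hfield : IsField ↑((Spec (CommRingCat.of k)).presheaf.stalk s) := isField_stalk k s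
  have hsep := Hensel.IsStrictHenselization.isSepClosure
    (R := (Spec (CommRingCat.of k)).presheaf.stalk s) (S := R)
  have hcl : IsSepClosed (IsLocalRing.ResidueField R) := hsep.sep_closed
  refine ⟨IsLocalRing.ResidueField R, inferInstance, hcl,
    Hens2.geomPt (Spec (CommRingCat.of k)) s R, Subsingleton.elim _ _, ?_⟩
  obtain ⟨e⟩ := Groth.Agent.S0620.result f F s R q
  refine IsZero.of_iso ?_ e
  let t : Spec (CommRingCat.of R) ⟶ Spec (CommRingCat.of k) :=
    Hens2.specOf (Spec (CommRingCat.of k)) s R
  let XR := pullback f t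
  let L := AlgebraicClosure (IsLocalRing.ResidueField R)
  let i : Spec (CommRingCat.of L) ⟶ Spec (CommRingCat.of R) := toSpecR R
  obtain ⟨hi1, hi2, hi3⟩ := toSpecR_properties
    ((Spec (CommRingCat.of k)).presheaf.stalk s) R hfield
  let W := pullback (pullback.snd f t) i
  let w : W ⟶ XR := pullback.fst (pullback.snd f t) i
  let g : W ⟶ Spec (CommRingCat.of L) := pullback.snd (pullback.snd f t) i
  have : IsIntegralHom w :=
    inferInstanceAs (IsIntegralHom (pullback.fst (pullback.snd f t) i))
  have : UniversallyInjective w :=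
    MorphismProperty.pullback_fst (P := @UniversallyInjective) (pullback.snd f t) i hi2
  have : Surjective w :=
    inferInstanceAs (Surjective (pullback.fst (pullback.snd f t) i))
  have hsq : IsPullback (w ≫ pullback.fst f t) g f (i ≫ t) :=
    (IsPullback.of_hasPullback (pullback.snd f t) i).paste_horiz (IsPullback.of_hasPullback f t)
  have h1 : Subsingleton (EtCoh.H W ((EtCoh.pull w).obj ((EtCoh.pull (pullback.fst f t)).obj F)) q) :=
    CdEtLeray.H_subsingleton_of_iso ((EtCore.pullComp w (pullback.fst f t)).app F) q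
      (H L (i ≫ t) W (w ≫ pullback.fst f t) g hsq)
  have h2 := Groth.Agent.S0642.result w ((EtCoh.pull (pullback.fst f t)).obj F) q
  have h3 : Subsingleton (EtCoh.H XR ((EtCoh.pull (pullback.fst f t)).obj F) q) :=
    h2.1.subsingleton
  exact AddCommGrpCat.isZero_of_subsingleton _

/-- Vanishing of cohomology in degrees `< n` may be checked over algebraically closed extensions of the
base field. -/
theorem H_subsingleton_of_algClosed (n : ℕ)
    (H : ∀ (L : Type u) [Field L] [IsAlgClosed L] (t : Spec (CommRingCat.of L) ⟶ Spec (CommRingCat.of k))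
      (W : Scheme.{u}) (w : W ⟶ X) (g : W ⟶ Spec (CommRingCat.of L)), IsPullback w g f t →
      ∀ q : ℕ, q < n → Subsingleton (EtCoh.H W ((EtCoh.pull w).obj F) q)) (q : ℕ) (hq : q < n) :
    Subsingleton (EtCoh.H X F q) := by
  have hz : ∀ q : ℕ, q < n → IsZero ((EtCoh.Rpush f q).obj F) := fun q hq =>
    isZero_Rpush_of_algClosed f F q fun L _ _ t W w g h => H L t W w g h q hq
  refine CdEtLeray.H_subsingleton_of_leray f F q ?_ ?_
  · refine CdEtLeray.H_subsingleton_of_isZero ?_ q
    exact (hz 0 (by omega)).of_iso ((EtCoh.push f).rightDerivedZeroIsoSelf.symm.app F)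
  · intro p q' hpq
    exact CdEtLeray.H_subsingleton_of_isZero (hz (q' + 1) (by omega)) p

end Groth.Agent.Sga2lef.H92.Descend
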