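import Groth.Agent.Sga2lef.H92.ClosedImm
import Groth.Agent.Sga5.ProjSmooth
import Groth.Agent.Ega3B.ProjProper
import Mathlib.AlgebraicGeometry.PullbackCarrier

/-!
# Affine schemes closed in a smooth affine scheme, with complement locally a union of few affine opens
-/

set_option autoImplicit false
universe u
open CategoryTheory CategoryTheory.Limits AlgebraicGeometry Opposite TopologicalSpace

namespace Groth.Agent.Sga2lef.H92.EmbData

open Groth.Agent.Sga2lef.H92.LocU Groth.Agent.Sga2lef.H92.ClosedImm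

/-- `U` is closed in a smooth affine scheme `Y` of relative dimension `N ≥ n + 1` over `K`, with complement
locally on `Y` a union of `N - n` affine opens; and `Y` has a compactification. -/
def Emb (K : Type u) [Field K] {U : Scheme.{u}} (f : U ⟶ Spec (CommRingCat.of K)) (n : ℕ) : Prop :=
  ∃ (Y Q : Scheme.{u}) (gQ : Q ⟶ Spec (CommRingCat.of K)) (a : Y ⟶ Q) (i : U ⟶ Y) (N : ℕ)
    (_ : IsAffine Y) (_ : IsProper gQ) (_ : IsOpenImmersion a)
    (_ : SmoothOfRelativeDimension N (a ≫ gQ)) (_ : IsClosedImmersion i),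
    i ≫ a ≫ gQ = f ∧ n + 1 ≤ N ∧ LocUnion (N - n) (compl i)

theorem LocUnion.congr {Y : Scheme.{u}} {r : ℕ} {W W' : Y.Opens} (h : LocUnion r W) (e : W = W') :
    LocUnion r W' := e ▸ h

theorem Emb.baseChange {k K : Type u} [Field k] [Field K] {U U' : Scheme.{u}}
    {f : U ⟶ Spec (CommRingCat.of k)} {n : ℕ} (h : Emb k f n)
    (t : Spec (CommRingCat.of K) ⟶ Spec (CommRingCat.of k)) (r : U' ⟶ U)
    (f' : U' ⟶ Spec (CommRingCat.of K)) (hsq : IsPullback r f' f t) : Emb K f' n := by
  obtain ⟨Y, Q, gQ, a, i, N, _, _, _, hsm, _, hf, hn, hW⟩ := h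
  let qQ : pullback gQ t ⟶ Q := pullback.fst gQ t
  let gQ' : pullback gQ t ⟶ Spec (CommRingCat.of K) := pullback.snd gQ t
  have h1 : IsPullback qQ gQ' gQ t := IsPullback.of_hasPullback gQ t
  let rY : pullback a qQ ⟶ Y := pullback.fst a qQ
  let a' : pullback a qQ ⟶ pullback gQ t := pullback.snd a qQ
  have h2 : IsPullback rY a' a qQ := IsPullback.of_hasPullback a qQ
  let i₀ : pullback i rY ⟶ pullback a qQ := pullback.snd i rY
  have h3 : IsPullback (pullback.fst i rY) i₀ i rY := IsPullback.of_hasPullback i rY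
  have h4 : IsPullback (pullback.fst i rY) (i₀ ≫ a' ≫ gQ') f t := by
    have := h3.paste_vert (h2.paste_vert h1)
    rw [hf] at this
    exact this
  let e : U' ≅ pullback i rY := hsq.isoIsPullback _ _ h4
  have he1 : e.hom ≫ pullback.fst i rY = r := hsq.isoIsPullback_hom_fst _ _ h4
  have he2 : e.hom ≫ (i₀ ≫ a' ≫ gQ') = f' := hsq.isoIsPullback_hom_snd _ _ h4
  have ht : IsAffineHom t := isAffineHom_of_isAffine t
  have hqa : IsAffineHom qQ := MorphismProperty.pullback_fst gQ t ht
  have hra : IsAffineHom rY := inferInstanceAs (IsAffineHom (pullback.fst a qQ))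
  have hYa : IsAffine (pullback a qQ) := isAffine_of_isAffineHom rY
  have hsm' : SmoothOfRelativeDimension N (a' ≫ gQ') := by
    have : MorphismProperty.IsStableUnderBaseChange (@SmoothOfRelativeDimension N) :=
      smoothOfRelativeDimension_isStableUnderBaseChange N
    exact MorphismProperty.of_isPullback (h2.paste_vert h1) hsm
  have hi₀ : IsClosedImmersion i₀ := inferInstanceAs (IsClosedImmersion (pullback.snd i rY))
  refine ⟨pullback a qQ, pullback gQ t, gQ', a', e.hom ≫ i₀, N, hYa,
    inferInstanceAs (IsProper (pullback.snd gQ t)),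
    inferInstanceAs (IsOpenImmersion (pullback.snd a qQ)), hsm', inferInstance, ?_, hn, ?_⟩
  · rw [← he2, Category.assoc]
  · refine LocUnion.congr (hW.preimage rY) ?_
    ext y
    change rY y ∉ Set.range i ↔ y ∉ Set.range (e.hom ≫ i₀)
    have hr1 : Set.range (e.hom ≫ i₀) = Set.range i₀ := by
      rw [Scheme.Hom.comp_base, TopCat.coe_comp]
      exact e.hom.surjective.range_comp _
    have hr2 : Set.range i₀ = rY ⁻¹' Set.range i := Scheme.Pullback.range_snd i rY
    rw [hr1, hr2]
    rfl

/-- Affine opens of geometric depth `≥ n` at closed points. -/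
theorem emb_of_depth (k : Type u) [Field k] (X : Scheme.{u})
    (f : X ⟶ Spec (CommRingCat.of k)) [LocallyOfFiniteType f] (V : X.Opens) (hV : IsAffineOpen V)
    (n : ℕ) (hdepth : ∀ u : X, u ∈ V → IsClosed ({u} : Set X) → Pres n (X.presheaf.stalk u)) :
    Emb k (V.ι ≫ f) n := by
  obtain ⟨N, hN, i, hi, hf, hW⟩ := exists_closedImmersion k X f V hV n hdepth
  have hp : IsProper (CohB1.ProjSpace.toSpec N k) := Groth.Agent.Ega3B.ProjProper.isProper_toSpec N k
  refine ⟨_, CohB1.ProjSpace N k, CohB1.ProjSpace.toSpec N k, Groth.Agent.Sga5.ProjSmooth.chart N k 0, i, N,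
    inferInstance, hp, inferInstance, ?_, hi, ?_, hN, hW⟩
  · rw [Groth.Agent.Sga5.ProjSmooth.chart_toSpec]
    exact Groth.Agent.Sga5.ProjSmooth.smooth_chart_toSpec N k
  · rw [Groth.Agent.Sga5.ProjSmooth.chart_toSpec]
    exact hf

end Groth.Agent.Sga2lef.H92.EmbData
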