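import Groth.Agent.Sga2lef.H92.LocEq
import Groth.Agent.Ega4B.DimFT
import Mathlib.RingTheory.RegularLocalRing.Polynomial
import Mathlib.RingTheory.Localization.Algebra

/-!
# Local equations from the geometric depth

`exists_local_eqs_of_presentation`: `π : k[T_1..T_N] → A` surjective, `m` a maximal ideal of `A` such
that `A_m` is the quotient of a regular local ring of dimension `e` by `q` equations with
`n + q ≤ e`; then, near `m`, the kernel of `π` is generated by `r` elements as soon as `N ≤ n + r`.
-/

set_option autoImplicit false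
universe u

namespace Groth.Agent.Sga2lef.H92.GeomEq

open Groth.Agent.Sga2lef.H92.LocEq

theorem map_primeCompl {R A : Type u} [CommRing R] [CommRing A] (π : R →+* A)
    (hπ : Function.Surjective π) (m : Ideal A) [m.IsPrime] (p : Ideal R) [p.IsPrime]
    (hp : p = m.comap π) : Submonoid.map π p.primeCompl = m.primeCompl := by
  subst hp
  ext a
  constructor
  · rintro ⟨r, hr, rfl⟩
    exact hr
  · intro ha
    obtain ⟨r, rfl⟩ := hπ a
    exact ⟨r, ha, rfl⟩

theorem spanFinrank_le_card {B : Type u} [CommRing B] (s : Finset B) :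
    (Ideal.span (s : Set B)).spanFinrank ≤ s.card := by
  refine (Submodule.spanFinrank_span_le_ncard_of_finite s.finite_toSet).trans ?_
  rw [Set.ncard_coe_finset]

theorem spanFinrank_le {k : Type u} [Field k] {N : ℕ} {A : Type u} [CommRing A]
    (π : MvPolynomial (Fin N) k →+* A) (hπ : Function.Surjective π) (m : Ideal A) [hm : m.IsMaximal]
    (p : Ideal (MvPolynomial (Fin N) k)) [p.IsPrime] (hp : p = m.comap π)
    (Am : Type u) [CommRing Am] [Algebra A Am] [IsLocalization.AtPrime Am m]
    (B : Type u) [CommRing B] [IsRegularLocalRing B] (φ : B →+* Am) (hφ : Function.Surjective φ)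
    (s : Finset B) (hs : Ideal.span (s : Set B) = RingHom.ker φ) (e : ℕ)
    (he : ringKrullDim B = (e : WithBot ℕ∞)) (n r : ℕ) (hn : n + s.card ≤ e) (hr : N ≤ n + r) :
    ((RingHom.ker π).map (algebraMap (MvPolynomial (Fin N) k) (Localization.AtPrime p))).spanFinrank
      ≤ r := by
  have hpm : p.IsMaximal := by
    subst hp
    exact Ideal.comap_isMaximal_of_surjective π hπ
  have hloc : IsLocalRing Am := IsLocalization.AtPrime.isLocalRing Am m
  have hnoeth : IsNoetherianRing Am := isNoetherianRing_of_surjective B Am φ hφ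
  have hM := map_primeCompl π hπ m p hp
  let f : Localization.AtPrime p →+* Am :=
    IsLocalization.map Am π (hM.symm ▸ p.primeCompl.le_comap_map)
  have hf : Function.Surjective f := by
    intro x
    obtain ⟨a, t, rfl⟩ := IsLocalization.exists_mk'_eq m.primeCompl x
    obtain ⟨a, rfl⟩ := hπ a
    have ht : (t : A) ∈ Submonoid.map π p.primeCompl := by rw [hM]; exact t.2
    obtain ⟨t', ht', htt⟩ := ht
    refine ⟨IsLocalization.mk' _ a (⟨t', ht'⟩ : p.primeCompl), ?_⟩
    rw [IsLocalization.map_mk']
    congr 1
    exact Subtype.ext htt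
  have hker : RingHom.ker f = (RingHom.ker π).map (algebraMap _ (Localization.AtPrime p)) :=
    IsLocalization.ker_map (S := Localization.AtPrime p) Am π hM
  have hdim : ringKrullDim (Localization.AtPrime p) = (N : WithBot ℕ∞) := by
    rw [IsLocalization.AtPrime.ringKrullDim_eq_height p,
      Groth.Agent.Ega4B.DimFT.height_eq_of_isMaximal_mvPolynomial_fin k N p]
    rfl
  have hreg : IsRegularLocalRing (Localization.AtPrime p) := inferInstance
  have key := Groth.Agent.S2941.result Am B (Localization.AtPrime p) φ hφ f hf e N he hdim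
  rw [hker] at key
  have h1 : (RingHom.ker φ).spanFinrank ≤ s.card := by
    rw [← hs]; exact spanFinrank_le_card s
  omega

/-- Local equations from the geometric depth. -/
theorem exists_local_eqs_of_presentation {k : Type u} [Field k] {N : ℕ} {A : Type u} [CommRing A]
    (π : MvPolynomial (Fin N) k →+* A) (hπ : Function.Surjective π) (m : Ideal A) [hm : m.IsMaximal]
    (Am : Type u) [CommRing Am] [Algebra A Am] [IsLocalization.AtPrime Am m]
    (B : Type u) [CommRing B] [IsRegularLocalRing B] (φ : B →+* Am) (hφ : Function.Surjective φ)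
    (s : Finset B) (hs : Ideal.span (s : Set B) = RingHom.ker φ) (e : ℕ)
    (he : ringKrullDim B = (e : WithBot ℕ∞)) (n r : ℕ) (hn : n + s.card ≤ e) (hr : N ≤ n + r) :
    ∃ (t : MvPolynomial (Fin N) k) (f : Fin r → MvPolynomial (Fin N) k), t ∉ m.comap π ∧
      (∀ i, f i ∈ RingHom.ker π) ∧ ∀ a ∈ RingHom.ker π, t * a ∈ Ideal.span (Set.range f) := by
  have hp : (m.comap π).IsPrime := Ideal.comap_isPrime π m
  exact exists_local_eqs (RingHom.ker π) (m.comap π) (Localization.AtPrime (m.comap π)) r
    (spanFinrank_le π hπ m (m.comap π) rfl Am B φ hφ s hs e he n r hn hr)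

end Groth.Agent.Sga2lef.H92.GeomEq
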