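import Groth.Agent.S2941
import Mathlib.RingTheory.Localization.AtPrime.Basic
import Mathlib.RingTheory.Localization.Ideal

/-!
# Local equations

`exists_local_eqs`: if `I_p` is generated by `r` elements then there are `r` elements of `I` generating
`I` after inverting some `t ∉ p`.
-/

set_option autoImplicit false
universe u

namespace Groth.Agent.Sga2lef.H92.LocEq

open Groth.Agent.Sga2.GeomDepth

variable {R : Type u} [CommRing R] [IsNoetherianRing R]

theorem exists_fin_gens_le {B : Type u} [CommRing B] (I : Ideal B) (hI : I.FG) (r : ℕ)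
    (h : I.spanFinrank ≤ r) : ∃ g : Fin r → B, Ideal.span (Set.range g) = I := by
  obtain ⟨g, hg⟩ := exists_fin_generators I hI
  obtain ⟨m, hm⟩ : ∃ m, m = I.spanFinrank := ⟨_, rfl⟩
  rw [← hm] at h
  obtain ⟨g, hg⟩ : ∃ g : Fin m → B, Ideal.span (Set.range g) = I := by
    subst hm; exact ⟨g, hg⟩
  refine ⟨fun i => if hi : (i : ℕ) < m then g ⟨i, hi⟩ else 0, ?_⟩
  apply le_antisymm
  · rw [Ideal.span_le]
    rintro _ ⟨i, rfl⟩
    dsimp only
    split_ifs with hi
    · rw [← hg]
      exact Ideal.subset_span ⟨_, rfl⟩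
    · exact I.zero_mem
  · rw [← hg, Ideal.span_le]
    rintro _ ⟨i, rfl⟩
    refine Ideal.subset_span ⟨⟨i, i.2.trans_le h⟩, ?_⟩
    simp

/-- If `I_p` is generated by `r` elements then there are `r` elements of `I` generating `I` after
inverting some `t ∉ p`. -/
theorem exists_local_eqs (I : Ideal R) (p : Ideal R) [p.IsPrime] (B : Type u) [CommRing B] [Algebra R B]
    [IsLocalization.AtPrime B p] (r : ℕ)
    (h : (I.map (algebraMap R B)).spanFinrank ≤ r) :
    ∃ (t : R) (f : Fin r → R), t ∉ p ∧ (∀ i, f i ∈ I) ∧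
      ∀ a ∈ I, t * a ∈ Ideal.span (Set.range f) := by
  classical
  have hI : I.FG := IsNoetherian.noetherian I
  have hIm : (I.map (algebraMap R B)).FG := hI.map _
  obtain ⟨g, hg⟩ := exists_fin_gens_le _ hIm r h
  have h1 : ∀ i, ∃ x : I × p.primeCompl, g i * algebraMap R B x.2 = algebraMap R B x.1 := fun i =>
    (IsLocalization.mem_map_algebraMap_iff p.primeCompl B).1 (by rw [← hg]; exact Ideal.subset_span ⟨i, rfl⟩)
  choose x hx using h1
  let f : Fin r → R := fun i => (x i).1
  have h2 : I.map (algebraMap R B) ≤ (Ideal.span (Set.range f)).map (algebraMap R B) := by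
    rw [← hg, Ideal.span_le]
    rintro _ ⟨i, rfl⟩
    have hu : IsUnit (algebraMap R B (x i).2) := IsLocalization.map_units B (x i).2
    obtain ⟨v, hv⟩ := hu.exists_right_inv
    have h3 : g i = algebraMap R B (x i).1 * v := by
      rw [← hx i, mul_assoc, hv, mul_one]
    rw [SetLike.mem_coe, h3]
    exact Ideal.mul_mem_right _ _ (Ideal.mem_map_of_mem _ (Ideal.subset_span ⟨i, rfl⟩))
  have h3 : ∀ a ∈ I, ∃ s : R, s ∉ p ∧ s * a ∈ Ideal.span (Set.range f) := by
    intro a ha
    obtain ⟨⟨b, s⟩, hb⟩ := (IsLocalization.mem_map_algebraMap_iff p.primeCompl B).1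
      (h2 (Ideal.mem_map_of_mem _ ha))
    dsimp only at hb
    rw [← map_mul, IsLocalization.eq_iff_exists p.primeCompl B] at hb
    obtain ⟨c, hc⟩ := hb
    refine ⟨c * s, ?_, ?_⟩
    · intro hcs
      exact (Ideal.IsPrime.mem_or_mem inferInstance hcs).elim c.2 s.2
    · have : (c : R) * s * a = c * (b : R) := by rw [← hc]; ring
      rw [this]
      exact Ideal.mul_mem_left _ _ b.2
  obtain ⟨S, hS⟩ := hI
  have h4 : ∀ a : S, ∃ s : R, s ∉ p ∧ s * a ∈ Ideal.span (Set.range f) := fun a =>
    h3 a (by rw [← hS]; exact Submodule.subset_span a.2)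
  choose s hs hs' using h4
  refine ⟨∏ a : S, s a, f, ?_, fun i => (x i).1.2, ?_⟩
  · intro hmem
    obtain ⟨a, -, ha⟩ := (Ideal.IsPrime.prod_mem_iff (p := p)).1 hmem
    exact hs a ha
  · intro a ha
    have h5 : I ≤ Submodule.comap (LinearMap.mulLeft R (∏ a : S, s a)) (Ideal.span (Set.range f)) := by
      rw [← hS, Submodule.span_le]
      intro b hb
      change (∏ a : S, s a) * b ∈ Ideal.span (Set.range f)
      rw [← Finset.mul_prod_erase _ _ (Finset.mem_univ (⟨b, hb⟩ : S)), mul_comm (s _), mul_assoc]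
      exact Ideal.mul_mem_left _ _ (hs' ⟨b, hb⟩)
    exact h5 ha

end Groth.Agent.Sga2lef.H92.LocEq
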