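import Groth.Agent.Sga2lef.H92.GeomEq
import Mathlib.AlgebraicGeometry.Morphisms.ClosedImmersion
import Mathlib.AlgebraicGeometry.Morphisms.Affine
import Mathlib.AlgebraicGeometry.Morphisms.FiniteType
import Mathlib.AlgebraicGeometry.Morphisms.FinitePresentation
import Mathlib.Topology.JacobsonSpace
import Mathlib.Topology.KrullDimension

/-!
# Closed subschemes of affine space locally defined by few equations

* `LocUnion r W`: the open subset `W` of `Y` is, locally on `Y`, a union of `r` affine opens;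
* `exists_closedImmersion`: an affine open `V` of a scheme `X` locally of finite type over a field, whose
  local rings at closed points have geometric depth `≥ n`, embeds as a closed subscheme in an affine
  space of dimension `n + r`, `r ≥ 1`, with complement locally a union of `r` affine opens.
-/

set_option autoImplicit false
universe u
open CategoryTheory CategoryTheory.Limits AlgebraicGeometry Opposite TopologicalSpace

namespace Groth.Agent.Sga2lef.H92.LocU

/-- The open subset `W` of `Y` is, locally on `Y`, a union of `r` affine opens. -/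
def LocUnion {Y : Scheme.{u}} (r : ℕ) (W : Y.Opens) : Prop :=
  ∀ y : Y, ∃ D : Y.Opens, IsAffineOpen D ∧ y ∈ D ∧ ∃ V : Fin r → Y.Opens,
    (∀ i, IsAffineOpen (V i)) ∧ (⨆ i, V i) = W ⊓ D

theorem LocUnion.preimage {Y Y' : Scheme.{u}} {r : ℕ} {W : Y.Opens} (h : LocUnion r W) (g : Y' ⟶ Y)
    [IsAffineHom g] : LocUnion r (g ⁻¹ᵁ W) := by
  intro y
  obtain ⟨D, hD, hy, V, hV, hVD⟩ := h (g y)
  refine ⟨g ⁻¹ᵁ D, hD.preimage g, hy, fun i => g ⁻¹ᵁ V i, fun i => (hV i).preimage g, ?_⟩
  rw [← Scheme.Hom.preimage_iSup, hVD]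
  rfl

/-- The open complement of a closed immersion. -/
def compl {Z Y : Scheme.{u}} (i : Z ⟶ Y) [IsClosedImmersion i] : Y.Opens :=
  ⟨(Set.range i)ᶜ, i.isClosedEmbedding.isClosed_range.isOpen_compl⟩

theorem mem_compl {Z Y : Scheme.{u}} (i : Z ⟶ Y) [IsClosedImmersion i] (y : Y) :
    y ∈ compl i ↔ y ∉ Set.range i := Iff.rfl

theorem mem_range_specMap_iff {R A : Type u} [CommRing R] [CommRing A] (π : R →+* A)
    (hπ : Function.Surjective π) (y : Spec (CommRingCat.of R)) :
    y ∈ Set.range (Spec.map (CommRingCat.ofHom π)) ↔ RingHom.ker π ≤ y.asIdeal := by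
  have h := range_comap_of_surjective A π hπ
  have h2 : (y ∈ Set.range (PrimeSpectrum.comap π)) ↔ y ∈ PrimeSpectrum.zeroLocus (RingHom.ker π : Set R) := by
    rw [h]
  exact h2

theorem locUnion_spec {k : Type u} [Field k] {N : ℕ} {A : Type u} [CommRing A]
    (π : MvPolynomial (Fin N) k →+* A) (hπ : Function.Surjective π) (r : ℕ) (hr : 1 ≤ r)
    (H : ∀ m : Ideal A, m.IsMaximal → ∃ (t : MvPolynomial (Fin N) k) (f : Fin r → MvPolynomial (Fin N) k),
      t ∉ m.comap π ∧ (∀ i, f i ∈ RingHom.ker π) ∧ ∀ a ∈ RingHom.ker π, t * a ∈ Ideal.span (Set.range f))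
    (W : (Spec (CommRingCat.of (MvPolynomial (Fin N) k))).Opens)
    (hW : ∀ y, y ∈ W ↔ y ∉ Set.range (Spec.map (CommRingCat.ofHom π))) : LocUnion r W := by
  intro y
  let bo : MvPolynomial (Fin N) k → (Spec (CommRingCat.of (MvPolynomial (Fin N) k))).Opens :=
    fun g => PrimeSpectrum.basicOpen g
  have hbo : ∀ g, IsAffineOpen (bo g) := fun g =>
    IsAffineOpen.Spec_basicOpen (R := CommRingCat.of (MvPolynomial (Fin N) k)) g
  by_cases hy : y ∈ W
  · rw [hW, mem_range_specMap_iff π hπ, SetLike.not_le_iff_exists] at hy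
    obtain ⟨g, hg, hgy⟩ := hy
    refine ⟨bo g, hbo g, hgy, fun _ => bo g, fun _ => hbo g, ?_⟩
    have : Nonempty (Fin r) := ⟨⟨0, hr⟩⟩
    rw [iSup_const, eq_comm, inf_eq_right]
    intro q hq
    rw [hW, mem_range_specMap_iff π hπ, SetLike.not_le_iff_exists]
    exact ⟨g, hg, hq⟩
  · rw [hW, not_not, mem_range_specMap_iff π hπ] at hy
    obtain ⟨M, hM, hyM⟩ := Ideal.exists_le_maximal y.asIdeal y.2.ne_top
    have hkM : RingHom.ker π ≤ M := hy.trans hyM
    have hm : (M.map π).IsMaximal := by
      refine Ideal.IsMaximal.map_of_surjective_of_ker_le hπ hkM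
    have hmM : (M.map π).comap π = M := by
      rw [Ideal.comap_map_of_surjective π hπ, sup_eq_left]
      exact hkM
    obtain ⟨t, f, ht, hf, hspan⟩ := H (M.map π) hm
    rw [hmM] at ht
    refine ⟨bo t, hbo t, fun h => ht (hyM h), fun i => bo (t * f i), fun _ => hbo _, ?_⟩
    ext q
    simp only [Opens.coe_iSup, Set.mem_iUnion, SetLike.mem_coe, Opens.coe_inf, Set.mem_inter_iff]
    rw [hW, mem_range_specMap_iff π hπ]
    constructor
    · rintro ⟨i, hi⟩
      have h1 : t * f i ∉ q.asIdeal := hi
      refine ⟨fun h => h1 (Ideal.mul_mem_left _ _ (h (hf i))), fun h => h1 (Ideal.mul_mem_right _ _ h)⟩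
    · rintro ⟨h1, h2⟩
      by_contra hcon
      push Not at hcon
      have h3 : ∀ i, f i ∈ q.asIdeal := by
        intro i
        have : t * f i ∈ q.asIdeal := by
          by_contra h
          exact hcon i h
        exact (q.2.mem_or_mem this).resolve_left h2
      refine h1 fun a ha => ?_
      have h4 : t * a ∈ q.asIdeal := by
        have h5 : Ideal.span (Set.range f) ≤ q.asIdeal := by
          rw [Ideal.span_le]
          rintro _ ⟨i, rfl⟩
          exact h3 i
        exact h5 (hspan a ha)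
      exact (q.2.mem_or_mem h4).resolve_left h2

/-- Presentations with extra variables. -/
theorem exists_presentation {k : Type u} [Field k] {A : Type u} [CommRing A] (g : k →+* A)
    (hg : g.FiniteType) (n : ℕ) : ∃ (N : ℕ) (_ : n ≤ N) (π : MvPolynomial (Fin N) k →+* A),
      Function.Surjective π ∧ π.comp MvPolynomial.C = g := by
  let _ : Algebra k A := g.toAlgebra
  have : Algebra.FiniteType k A := hg
  obtain ⟨N₀, f, hf⟩ := Algebra.FiniteType.iff_quotient_mvPolynomial''.mp this
  refine ⟨N₀ + n, Nat.le_add_left _ _, (MvPolynomial.aeval (R := k) (Fin.append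
    (fun i => f (MvPolynomial.X i)) (fun _ => (0 : A)))).toRingHom, ?_, ?_⟩
  · intro a
    obtain ⟨p, rfl⟩ := hf a
    refine ⟨MvPolynomial.rename (Fin.castAdd n) p, ?_⟩
    have h1 : (MvPolynomial.aeval (R := k) (Fin.append (fun i => f (MvPolynomial.X i))
        (fun _ : Fin n => (0 : A)))).comp (MvPolynomial.rename (Fin.castAdd n)) = f := by
      ext i
      simp
    exact congrArg (fun φ : MvPolynomial (Fin N₀) k →ₐ[k] A => φ p) h1
  · ext r
    simp [RingHom.algebraMap_toAlgebra]

end Groth.Agent.Sga2lef.H92.LocU
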