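import Groth.Agent.Sga5.ShriekMV

/-!
# Mayer-Vietoris for `H^q(X, O_! M)`, `O` an open subset of `X`
-/

set_option autoImplicit false
universe u
open CategoryTheory CategoryTheory.Limits AlgebraicGeometry Opposite

namespace Groth.Agent.Sga2lef.H92.VanOpens

open Groth.Agent.Sga5.ShriekMV Groth.Agent.Etcore.ShriekUnique Groth.Agent.Etcore.ShriekBasic

variable {X : Scheme.{u}} (M : Type) [AddCommGroup M]

/-- Vanishing of `H^q(X, O_! M)`. -/
def VanO (O : X.Opens) (q : ℕ) : Prop :=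
  Subsingleton (EtCoh.H X ((EtShriek.extZero O.ι).obj (EtCoh.const O M)) q)

theorem nonempty_restr_const {U V P : Scheme.{u}} (j : U ⟶ P) [IsOpenImmersion j] (v : V ⟶ U)
    [IsOpenImmersion v] (c : V ⟶ P) [IsOpenImmersion c] (w : v ≫ j = c) :
    Nonempty ((EtShriek.restrAlong c).obj ((EtShriek.extZero j).obj (EtCoh.const U M)) ≅
      EtCoh.const V M) := by
  subst w
  obtain ⟨e⟩ := nonempty_restr_iso j v (EtCoh.const U M)
  exact ⟨e ≪≫ EtCore.pullConst v M⟩

theorem vanO_sup (L W : X.Opens) (q : ℕ) (h1 : VanO M L q) (h2 : VanO M W q)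
    (h3 : VanO M (L ⊓ W) (q + 1)) : VanO M (L ⊔ W) q := by
  have key : ∀ (O : X.Opens) (_ : O ≤ L ⊔ W) (i : ℕ), VanO M O i →
      Subsingleton (EtCoh.H X ((EtShriek.extZero O.ι).obj ((EtShriek.restrAlong O.ι).obj
        ((EtShriek.extZero (L ⊔ W).ι).obj (EtCoh.const (L ⊔ W : X.Opens) M)))) i) := by
    intro O hO i h
    obtain ⟨e⟩ := nonempty_restr_const M (L ⊔ W).ι (X.homOfLE hO) O.ι (X.homOfLE_ι hO)
    exact subsingleton_H_of_iso ((EtShriek.extZero O.ι).mapIso e.symm) i h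
  refine mv L.ι W.ι (L ⊓ W).ι ?_ _ ?_ q (key L le_sup_left q h1) (key W le_sup_right q h2)
    (key (L ⊓ W) (inf_le_left.trans le_sup_left) (q + 1) h3)
  · rw [Scheme.Opens.range_ι, Scheme.Opens.range_ι, Scheme.Opens.range_ι]
    rfl
  · intro Ω _ _ ξ h1 h2
    refine isZero_stalk_extZero' (L ⊔ W).ι ξ ?_ _
    rw [Scheme.Opens.range_ι] at h1 h2 ⊢
    exact fun h => h.elim h1 h2

/-- The case of affine opens gives the case of unions of `c + 1` affine opens. -/
theorem vanO_iSup [IsSeparated (terminal.from X)] (U₀ : X.Opens) (n : ℕ)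
    (H : ∀ O : X.Opens, IsAffineOpen O → O ≤ U₀ → ∀ q : ℕ, q < n → VanO M O q) (c : ℕ) :
    ∀ (V : Fin (c + 1) → X.Opens) (_ : ∀ i, IsAffineOpen (V i)) (_ : ∀ i, V i ≤ U₀) (q : ℕ)
      (_ : q + c < n), VanO M (⨆ i, V i) q := by
  induction c with
  | zero =>
    intro V hV hVU q hq
    have h1 : (⨆ i, V i) = V 0 := by
      apply le_antisymm
      · refine iSup_le fun i => ?_
        rw [Fin.fin_one_eq_zero i]
      · exact le_iSup V 0
    rw [h1]
    exact H _ (hV 0) (hVU 0) q hq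
  | succ c ih =>
    intro V hV hVU q hq
    have h1 : (⨆ i, V i) = V (Fin.last (c + 1)) ⊔ ⨆ a : Fin (c + 1), V a.castSucc := by
      apply le_antisymm
      · refine iSup_le fun a => ?_
        refine Fin.lastCases le_sup_left (fun a => ?_) a
        exact le_trans (le_iSup (fun a : Fin (c + 1) => V a.castSucc) a) le_sup_right
      · exact sup_le (le_iSup V _) (iSup_le fun a => le_iSup V _)
    rw [h1]
    refine vanO_sup M _ _ q (H _ (hV _) (hVU _) q (by omega))
      (ih _ (fun a => hV _) (fun a => hVU _) q (by omega)) ?_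
    rw [inf_iSup_eq]
    exact ih _ (fun a => (hV _).inf (hV _)) (fun a => inf_le_left.trans (hVU _)) (q + 1) (by omega)

end Groth.Agent.Sga2lef.H92.VanOpens
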